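import Mathlib

set_option autoImplicit false

namespace Cfsg.Agent.Lib.Helper96.TIC

open Subgroup MulAction

/-- A group `D` normalising `X` and acting freely by conjugation on `X ∖ 1` has order dividing
`|X| - 1`. -/
theorem free_dvd {G : Type*} [Group G] [Finite G] (D X : Subgroup G)
    (hn : ∀ d ∈ D, ∀ x ∈ X, d * x * d⁻¹ ∈ X)
    (hf : ∀ d ∈ D, ∀ x ∈ X, x ≠ 1 → d * x * d⁻¹ = x → d = 1) :
    Nat.card D ∣ Nat.card X - 1 := by
  classical
  letI : MulAction D ↥((X : Set G) \ {1}) :=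
    { smul := fun d y => ⟨(d : G) * y.1 * (d : G)⁻¹, hn d d.2 y.1 y.2.1, fun h => y.2.2 (by
        have h' : (d : G) * y.1 * (d : G)⁻¹ = 1 := h
        exact conj_eq_one_iff.mp h')⟩
      one_smul := fun y => Subtype.ext (by
        change ((1 : D) : G) * y.1 * ((1 : D) : G)⁻¹ = y.1
        simp)
      mul_smul := fun d e y => Subtype.ext (by
        change ((d * e : D) : G) * y.1 * ((d * e : D) : G)⁻¹
          = (d : G) * ((e : G) * y.1 * (e : G)⁻¹) * (d : G)⁻¹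
        simp [mul_assoc]) }
  have hst : ∀ y : ↥((X : Set G) \ {1}), MulAction.stabilizer D y = ⊥ := by
    intro y
    rw [eq_bot_iff]
    intro d hd
    rw [Subgroup.mem_bot]
    have h1 : (d : G) * y.1 * (d : G)⁻¹ = y.1 := congrArg Subtype.val (MulAction.mem_stabilizer_iff.mp hd)
    exact Subtype.ext (hf d d.2 y.1 y.2.1 (fun h => y.2.2 h) h1)
  have e := MulAction.selfEquivOrbitsQuotientProd hst
  have h1 : Nat.card ↥((X : Set G) \ {1}) = Nat.card X - 1 := by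
    rw [Nat.card_coe_set_eq, Set.ncard_diff_singleton_of_mem X.one_mem]
    rfl
  rw [← h1, Nat.card_congr e, Nat.card_prod]
  exact Dvd.intro_left _ rfl

theorem arith {n c1 c2 : ℕ} (h0 : 0 < c1) (h1 : c1 < c2) (h2 : c2 < 2 * n)
    (d1 : 2 ^ n - 1 ∣ 2 ^ c1 - 1) (d2 : 2 ^ n - 1 ∣ 2 ^ c2 - 1) : False := by
  have hn1 : n ≤ c1 := by
    by_contra h
    push_neg at h
    have h4 : 1 < 2 ^ c1 := Nat.one_lt_two_pow (by omega)
    have h5 := Nat.le_of_dvd (by omega) d1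
    have h3 : 2 ^ c1 < 2 ^ n := Nat.pow_lt_pow_right (by norm_num) h
    omega
  obtain ⟨r, rfl⟩ : ∃ r, c2 = n + r := ⟨c2 - n, by omega⟩
  have hr0 : 0 < r := by omega
  have hrn : r < n := by omega
  have a1 : 1 ≤ 2 ^ n := Nat.one_le_two_pow
  have a2 : 1 ≤ 2 ^ r := Nat.one_le_two_pow
  have e : 2 ^ (n + r) - 1 = 2 ^ r * (2 ^ n - 1) + (2 ^ r - 1) := by
    have a3 : 1 ≤ 2 ^ (n + r) := Nat.one_le_two_pow
    zify [a1, a2, a3]
    ring
  rw [e] at d2
  have d3 : 2 ^ n - 1 ∣ 2 ^ r - 1 := (Nat.dvd_add_right (Dvd.intro_left _ rfl)).mp d2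
  have h4 : 1 < 2 ^ r := Nat.one_lt_two_pow (by omega)
  have h5 := Nat.le_of_dvd (by omega) d3
  have h3 : 2 ^ r < 2 ^ n := Nat.pow_lt_pow_right (by norm_num) hrn
  omega

end Cfsg.Agent.Lib.Helper96.TIC
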